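import Mathlib
import Cfsg.Agent.Lib.SJ.MRel
import Cfsg.Agent.Lib.SJ.MCard

/-! # SJ model package MQ: `x0` and `r x0 r⁻¹` lie in `Q`. -/

set_option autoImplicit false

namespace CfsgLib.SJ

open Subgroup Cfsg CfsgLib.Comput

theorem mq_x0 : b * (x1 * b * x1⁻¹) * b * (b * (x1 * b * x1⁻¹))⁻¹ = b * z := by
  have bi : b⁻¹ = b := inv_eq_of_mul_eq_one_right bb
  rw [← zb, ← x0_sq, pow_two, mul_inv_rev, conj_inv, bi]; group

theorem mq_U {u : J} (hu : u ∈ U) : u * (b * z) * u⁻¹ = b ∨ u * (b * z) * u⁻¹ = b * z := by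
  have ai : a⁻¹ = a := inv_eq_of_mul_eq_one_right aa
  have k : a * (b * z) * a⁻¹ = b := by
    calc _ = a * b * (z * a) * (b * b) := by rw [ai, bb]; group
      _ = a * b * a * (z * b) * b := by rw [za]; group
      _ = a * b * a * b * z * b := by rw [zb]; group
      _ = b := by rw [abab, zz, one_mul]
  rcases mem_U.1 hu with rfl | rfl | rfl | rfl
  · exact .inr (by group)
  · exact .inr (by rw [← mul_assoc, mul_inv_cancel_right, zb])
  · exact .inl k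
  · exact .inl (by
      calc _ = z * (a * (b * z) * a⁻¹) * z⁻¹ := by group
        _ = b := by rw [k, zb, mul_inv_cancel_right])

theorem qf {g k : J} (hg : g ∈ P0) (hk : k = b * (x1 * b * x1⁻¹) ∨ k = r * (b * (x1 * b * x1⁻¹)) * r⁻¹) :
    k * (g * b * g⁻¹) * k⁻¹ = g * b * g⁻¹ ∨ k * (g * b * g⁻¹) * k⁻¹ = g * b * g⁻¹ * z := by
  obtain ⟨kP, kb⟩ : k ∈ P0 ∧ k * b * k⁻¹ = b * z := by
    rcases hk with rfl | rfl
    · exact ⟨x0_mem_P0, mq_x0⟩
    · refine ⟨r_norm x0_mem_P0, ?_⟩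
      calc _ = r * (b * (x1 * b * x1⁻¹) * (r⁻¹ * (b * r)) * (b * (x1 * b * x1⁻¹))⁻¹) * r⁻¹ := by group
        _ = b * z := by
          rw [← rb, inv_mul_cancel_left, mq_x0, ← mul_assoc, rb, mul_assoc b, rz, ← mul_assoc,
            mul_inv_cancel_right]
  have e : k * (g * b * g⁻¹) * k⁻¹ = g * ((g⁻¹ * k * g⁻¹⁻¹ * k⁻¹) * (b * z) *
      (g⁻¹ * k * g⁻¹⁻¹ * k⁻¹)⁻¹) * g⁻¹ := by rw [← kb]; group
  rw [e]
  rcases mq_U (P0_comm (inv_mem hg) kP) with h | h <;> rw [h]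
  · exact .inl rfl
  · exact .inr (by rw [mul_assoc (g * b), (P0_cent (inv_mem hg)).1]; group)

end CfsgLib.SJ
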