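import Mathlib
import Cfsg.Prelude.Def_Local
import Cfsg.Prelude.Def_Spor_Mathieu
import Cfsg.Agent.Lib.Tech.SylowIn

/-!
# An involution `t` with centraliser `Y × ⟨t⟩ × A5` inverting a group `F = 4 × 4` (project SJ, branch S; plans/SJS.md)
-/

set_option autoImplicit false

namespace CfsgLib.SJ.Pu

open Subgroup Cfsg
open scoped MatrixGroups

variable {G : Type*} [Group G]

/-- `F = ⟨f, g⟩` -/
def Fs (f g : G) : Subgroup G := closure {f, g}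

/-- `F = ⟨f,g⟩ ≅ Z4 × Z4` with squares `z, a`, inverted by `t`; `s` of order 3 acts on it without fixed points -/
structure FG (t z a s f g : G) : Prop where
  tt : t * t = 1
  zz : z * z = 1
  aa : a * a = 1
  z1 : z ≠ 1
  a1 : a ≠ 1
  za : z ≠ a
  ff : f * f = z
  gg : g * g = a
  fg : f * g = g * f
  tf : t * f * t = f⁻¹
  tg : t * g * t = g⁻¹
  st : s * t = t * s
  s3 : s * s * s = 1
  sf : s * f * s⁻¹ = g
  sg : s * g * s⁻¹ = f⁻¹ * g⁻¹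

/-- `C(t) = Y × ⟨t⟩ × B`, `B ≅ A5`, `Y` of odd order, `t` not conjugate into `B` -/
structure Pm (B Y : Subgroup G) (t z a s f g : G) : Prop extends FG t z a s f g where
  iso : Nonempty (alternatingGroup (Fin 5) ≃* B)
  zB : z ∈ B
  aB : a ∈ B
  sB : s ∈ B
  tB : ∀ b ∈ B, t * b = b * t
  yodd : ∀ y ∈ Y, Odd (orderOf y)
  yt : ∀ y ∈ Y, y * t = t * y
  yB : ∀ y ∈ Y, ∀ b ∈ B, y * b = b * y
  cent : ∀ x, x * t = t * x → ∃ y ∈ Y, ∃ b ∈ B, x = y * b ∨ x = y * b * t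
  nc : ∀ x, x * t * x⁻¹ ∉ B

/-- the group `S` of order 64 over `F` with `t ^ S = t F` -/
structure Loc (S : Subgroup G) (t z a f g : G) : Prop where
  card : Nat.card S = 64
  fS : f ∈ S
  gS : g ∈ S
  tS : ∀ x ∈ S, t * x * t ∈ S
  cz : ∀ x ∈ S, x * z = z * x
  ca : ∀ x ∈ S, x * a = a * x
  nF : ∀ x ∈ S, ∀ φ ∈ Fs f g, x * φ * x⁻¹ ∈ Fs f g
  tau : ∀ x ∈ S, x * t * x⁻¹ * t ∈ Fs f g
  tr : ∀ φ ∈ Fs f g, ∃ x ∈ S, x * t * x⁻¹ = t * φ
  fix : ∀ x ∈ S, x * t = t * x → x ∈ Fs z a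

/-- `E ≅ L3(4)` -/
def K34 (E : Type*) [Group E] : Prop :=
  ∃ (K : Type) (_ : Field K) (_ : Fintype K), Fintype.card K = 4 ∧ Nonempty (E ≃* PSL(3, K))

/-- `E ≅ U3(4)` -/
def KU4 (E : Type*) [Group E] : Prop :=
  ∃ (K : Type) (_ : Field K) (_ : Fintype K), Fintype.card K = 16 ∧ Nonempty (E ≃* PSU 3 K 4)

/-- no element of order 8, one class of involutions -/
structure KF (E : Type*) [Group E] : Prop where
  exp : ∀ x : E, x ^ 8 = 1 → x ^ 4 = 1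
  one : ∀ x y : E, x * x = 1 → x ≠ 1 → y * y = 1 → y ≠ 1 → IsConj x y

end CfsgLib.SJ.Pu
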