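import Mathlib
import Cfsg.Agent.Lib.SJ.PDefs

/-! Package PF: calculus in `F = 4 × 4` and in `B ≅ A5` (plans/SJS.md). -/

set_option autoImplicit false
set_option linter.unusedVariables false
set_option linter.unusedSectionVars false

namespace CfsgLib.SJ.Pu

open Subgroup Cfsg
open scoped MatrixGroups

variable {G : Type*} [Group G] {B Y S E : Subgroup G} {t z a s f g : G}

abbrev Z44 := ZMod 4 × ZMod 4

/-- coordinates -/
def ev (f g : G) (p : Z44) : G := f ^ p.1.val * g ^ p.2.val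

def sg4 (p : Z44) : Z44 := (-p.2, p.1 - p.2)

set_option synthInstance.maxSize 2048 in
theorem z44_key : ∀ A B c : Z44, A.1.val • A + A.2.val • B = (1, 0) → B.1.val • A + B.2.val • B = (0, 1) →
    c.1.val • A + c.2.val • B + c = 0 → ¬(2 • A = (2, 0) ∧ 2 • B = (0, 2)) →
    ∃ p : Z44, -c + (p.1.val • A + p.2.val • B) = p := by decide +kernel

namespace FG
variable (h : FG t z a s f g)
include h

theorem f4 : f ^ 4 = 1 := by rw [show 4 = 2 * 2 from rfl, pow_mul, pow_two, pow_two, h.ff, h.zz]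
theorem g4 : g ^ 4 = 1 := by rw [show 4 = 2 * 2 from rfl, pow_mul, pow_two, pow_two, h.gg, h.aa]

theorem ev_add (p q : Z44) : ev f g (p + q) = ev f g p * ev f g q := by
  have c : Commute f g := h.fg
  rw [ev, ev, ev, Prod.fst_add, Prod.snd_add, ZMod.val_add, ZMod.val_add, ← pow_eq_pow_mod _ h.f4,
    ← pow_eq_pow_mod _ h.g4, pow_add, pow_add]
  exact (c.pow_pow _ _).mul_mul_mul_comm _ _

omit h in
theorem ev_zero : ev f g 0 = 1 := by simp [ev]
omit h in
theorem ev_f : ev f g (1, 0) = f := by change f ^ 1 * g ^ 0 = f; simp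
omit h in
theorem ev_g : ev f g (0, 1) = g := by change f ^ 0 * g ^ 1 = g; simp
theorem ev_z : ev f g (2, 0) = z := by change f ^ 2 * g ^ 0 = z; simp [pow_two, h.ff]
theorem ev_a : ev f g (0, 2) = a := by change f ^ 0 * g ^ 2 = a; simp [pow_two, h.gg]
theorem ev_za : ev f g (2, 2) = z * a := by change f ^ 2 * g ^ 2 = _; simp [pow_two, h.gg, h.ff]

theorem ev_neg (p : Z44) : ev f g (-p) = (ev f g p)⁻¹ :=
  eq_inv_of_mul_eq_one_left (by rw [← h.ev_add, neg_add_cancel, ev_zero])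

/-- the coordinate map as a homomorphism -/
def evH : Multiplicative Z44 →* G := MonoidHom.mk' (fun p => ev f g p.toAdd) fun p q => h.ev_add _ _

theorem ev_pow (p : Z44) (n : ℕ) : ev f g (n • p) = ev f g p ^ n := h.evH.map_pow (Multiplicative.ofAdd p) n

theorem za1 : z * a ≠ 1 := fun e => h.za (mul_right_cancel (e.trans h.aa.symm))

theorem ev_one {p : Z44} (e : ev f g p = 1) : p = 0 := by
  have e2 : ev f g (p + p) = 1 := by rw [h.ev_add, e, mul_one]
  have k : ∀ q : Z44, ev f g q = 1 → ¬(q = (2, 0) ∨ q = (0, 2) ∨ q = (2, 2)) := by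
    rintro _ e (rfl | rfl | rfl)
    exacts [h.z1 (h.ev_z.symm.trans e), h.a1 (h.ev_a.symm.trans e), h.za1 (h.ev_za.symm.trans e)]
  have k1 := k _ e
  have k2 := k _ e2
  revert k1 k2
  generalize p = p
  revert p
  decide

theorem ev_inj : Function.Injective (ev f g) :=
  (injective_iff_map_eq_one h.evH).2 fun _ e => h.ev_one e

theorem range_evH : h.evH.range = Fs f g := by
  refine le_antisymm ?_ ((closure_le _).2 ?_)
  · rintro _ ⟨p, rfl⟩
    exact mul_mem (pow_mem (subset_closure (by simp)) _) (pow_mem (subset_closure (by simp)) _)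
  · rintro _ (rfl | rfl)
    exacts [⟨Multiplicative.ofAdd (1, 0), ev_f⟩, ⟨Multiplicative.ofAdd (0, 1), ev_g⟩]

theorem memF {x : G} : x ∈ Fs f g ↔ ∃ p, ev f g p = x := by rw [← h.range_evH]; rfl

theorem evF (p : Z44) : ev f g p ∈ Fs f g := h.memF.2 ⟨p, rfl⟩

theorem memU {x : G} : x ∈ Fs z a ↔ ∃ p, p + p = 0 ∧ ev f g p = x := by
  refine ⟨fun hx => ?_, ?_⟩
  · induction hx using closure_induction with
    | mem x hx =>
      rcases hx with rfl | rfl
      exacts [⟨(2, 0), by decide, h.ev_z⟩, ⟨(0, 2), by decide, h.ev_a⟩]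
    | one => exact ⟨0, by decide, ev_zero⟩
    | mul x y _ _ hx hy =>
      obtain ⟨p, hp, rfl⟩ := hx
      obtain ⟨q, hq, rfl⟩ := hy
      exact ⟨p + q, by rw [add_add_add_comm, hp, hq, add_zero], h.ev_add p q⟩
    | inv x _ hx =>
      obtain ⟨p, hp, rfl⟩ := hx
      exact ⟨-p, by rw [← neg_add, hp, neg_zero], h.ev_neg p⟩
  · rintro ⟨p, hp, rfl⟩
    have zU : z ∈ Fs z a := subset_closure (by simp)
    have aU : a ∈ Fs z a := subset_closure (by simp)
    rcases (by decide : ∀ p : Z44, p + p = 0 → p = 0 ∨ p = (2, 0) ∨ p = (0, 2) ∨ p = (2, 2)) p hp with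
      rfl | rfl | rfl | rfl
    exacts [by rw [ev_zero]; exact one_mem _, h.ev_z.symm ▸ zU, h.ev_a.symm ▸ aU, h.ev_za.symm ▸ mul_mem zU aU]

theorem evU {p : Z44} : ev f g p ∈ Fs z a ↔ p + p = 0 :=
  ⟨fun e => by obtain ⟨q, hq, e⟩ := h.memU.1 e; rwa [← h.ev_inj e], fun e => h.memU.2 ⟨p, e, rfl⟩⟩

theorem tinv : t⁻¹ = t := inv_eq_of_mul_eq_one_right h.tt

/-- an element normalising `F` acts linearly -/
theorem ev_conj {y : G} {A B : Z44} (h1 : y * f * y⁻¹ = ev f g A) (h2 : y * g * y⁻¹ = ev f g B) (p : Z44) :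
    y * ev f g p * y⁻¹ = ev f g (p.1.val • A + p.2.val • B) := by
  rw [h.ev_add, h.ev_pow, h.ev_pow, ← h1, ← h2, conj_pow, conj_pow, ev]; group

theorem ev_t (p : Z44) : t * ev f g p * t = ev f g (-p) := by
  have := h.ev_conj (y := t) (A := -(1, 0)) (B := -(0, 1)) (by rw [h.tinv, h.tf, h.ev_neg, ev_f])
    (by rw [h.tinv, h.tg, h.ev_neg, ev_g]) p
  rw [h.tinv] at this
  rw [this]
  exact congrArg _ ((by decide : ∀ p : Z44, p.1.val • -((1, 0) : Z44) + p.2.val • -((0, 1) : Z44) = -p) p)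

theorem ev_s (p : Z44) : s * ev f g p * s⁻¹ = ev f g (sg4 p) := by
  rw [h.ev_conj (y := s) (A := (0, 1)) (B := -(1, 0) + -(0, 1)) (by rw [h.sf, ev_g])
    (by rw [h.sg, h.ev_add, h.ev_neg, h.ev_neg, ev_f, ev_g]) p]
  exact congrArg _ ((by decide : ∀ p : Z44, p.1.val • ((0, 1) : Z44) +
    p.2.val • (-((1, 0) : Z44) + -((0, 1) : Z44)) = sg4 p) p)

theorem ev_s_pow (i : ℕ) (p : Z44) : s ^ i * ev f g p * (s ^ i)⁻¹ = ev f g (sg4^[i] p) := by
  induction i with
  | zero => simp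
  | succ i ih => rw [Function.iterate_succ_apply', ← h.ev_s, ← ih, pow_succ']; group

theorem mem_U {x : G} : x ∈ Fs z a ↔ x = 1 ∨ x = z ∨ x = a ∨ x = z * a := by
  rw [h.memU]
  refine ⟨fun ⟨p, hp, e⟩ => ?_, ?_⟩
  · subst e
    rcases (by decide : ∀ p : Z44, p + p = 0 → p = 0 ∨ p = (2, 0) ∨ p = (0, 2) ∨ p = (2, 2)) p hp with
      rfl | rfl | rfl | rfl
    exacts [.inl ev_zero, .inr (.inl h.ev_z), .inr (.inr (.inl h.ev_a)), .inr (.inr (.inr h.ev_za))]
  · rintro (e | e | e | e)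
    exacts [⟨0, by decide, ev_zero.trans e.symm⟩, ⟨_, by decide, h.ev_z.trans e.symm⟩,
      ⟨_, by decide, h.ev_a.trans e.symm⟩, ⟨_, by decide, h.ev_za.trans e.symm⟩]
theorem mem_F {x : G} : x ∈ Fs f g ↔ ∃ i j : Fin 4, x = f ^ (i : ℕ) * g ^ (j : ℕ) :=
  h.memF.trans ⟨fun ⟨p, e⟩ => ⟨p.1, p.2, e.symm⟩, fun ⟨i, j, e⟩ => ⟨(i, j), e.symm⟩⟩
theorem U_le : Fs z a ≤ Fs f g :=
  fun _ hx => by obtain ⟨p, -, rfl⟩ := h.memU.1 hx; exact h.evF p
theorem comm {x y : G} (hx : x ∈ Fs f g) (hy : y ∈ Fs f g) : x * y = y * x := by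
  obtain ⟨p, rfl⟩ := h.memF.1 hx
  obtain ⟨q, rfl⟩ := h.memF.1 hy
  rw [← h.ev_add, ← h.ev_add, add_comm]
theorem inv_t {x : G} (hx : x ∈ Fs f g) : t * x * t = x⁻¹ := by
  obtain ⟨p, rfl⟩ := h.memF.1 hx
  rw [h.ev_t, h.ev_neg]
theorem conj_t {x : G} (hx : x ∈ Fs f g) : x * t * x⁻¹ = t * (x * x) := by
  obtain ⟨p, rfl⟩ := h.memF.1 hx
  calc _ = t * (t * ev f g p * t) * (ev f g p)⁻¹ := by simp only [← mul_assoc, h.tt, one_mul]
    _ = _ := by
      rw [h.ev_t, ← h.ev_neg, mul_assoc, ← h.ev_add, ← h.ev_add]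
      exact congrArg (fun q => t * ev f g q) ((by decide : ∀ p : Z44, -p + -p = p + p) p)
theorem sq_mem {x : G} (hx : x ∈ Fs f g) : x * x ∈ Fs z a := by
  obtain ⟨p, rfl⟩ := h.memF.1 hx
  rw [← h.ev_add, h.evU]
  exact (by decide : ∀ p : Z44, p + p + (p + p) = 0) p
theorem sq_U {x : G} (hx : x ∈ Fs z a) : x * x = 1 := by
  obtain ⟨p, hp, rfl⟩ := h.memU.1 hx
  rw [← h.ev_add, hp, ev_zero]
theorem mem_U_of_sq {x : G} (hx : x ∈ Fs f g) (h2 : x * x = 1) : x ∈ Fs z a := by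
  obtain ⟨p, rfl⟩ := h.memF.1 hx
  exact h.evU.2 (h.ev_one (by rw [h.ev_add, h2]))
theorem exists_sq {u : G} (hu : u ∈ Fs z a) : ∃ x ∈ Fs f g, x * x = u := by
  obtain ⟨p, hp, rfl⟩ := h.memU.1 hu
  obtain ⟨q, rfl⟩ := (by decide : ∀ p : Z44, p + p = 0 → ∃ q, q + q = p) p hp
  exact ⟨_, h.evF q, (h.ev_add q q).symm⟩
theorem t_not : t ∉ Fs f g :=
  fun ht => by
  have hf : f ∈ Fs f g := subset_closure (by simp)
  have e := h.tf
  rw [h.comm ht hf, mul_assoc, h.tt, mul_one] at e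
  exact h.z1 (by rw [← h.ff]; exact mul_eq_one_iff_eq_inv.2 e)
theorem tz : t * z = z * t := by
  have e := h.ev_t (2, 0)
  rw [show -((2, 0) : Z44) = (2, 0) by decide, h.ev_z] at e
  rw [← e, mul_assoc (t * z), h.tt, mul_one, e]
theorem ta : t * a = a * t := by
  have e := h.ev_t (0, 2)
  rw [show -((0, 2) : Z44) = (0, 2) by decide, h.ev_a] at e
  rw [← e, mul_assoc (t * a), h.tt, mul_one, e]
theorem sz : s * z * s⁻¹ = a := by
  have e := h.ev_s (2, 0)
  rwa [show sg4 (2, 0) = (0, 2) by decide, h.ev_z, h.ev_a] at e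
theorem sa : s * a * s⁻¹ = z * a := by
  have e := h.ev_s (0, 2)
  rwa [show sg4 (0, 2) = (2, 2) by decide, h.ev_za, h.ev_a] at e
theorem s_norm {x : G} (hx : x ∈ Fs f g) : s * x * s⁻¹ ∈ Fs f g := by
  obtain ⟨p, rfl⟩ := h.memF.1 hx
  rw [h.ev_s]; exact h.evF _
/-- `s` permutes the three non-trivial cosets of `U` in `F` transitively -/
theorem s_trans {x y : G} (hx : x ∈ Fs f g) (hx' : x ∉ Fs z a) (hy : y ∈ Fs f g) (hy' : y ∉ Fs z a) :
    ∃ i : ℕ, ∃ u ∈ Fs z a, s ^ i * x * (s ^ i)⁻¹ = y * u := by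
  obtain ⟨p, rfl⟩ := h.memF.1 hx
  obtain ⟨q, rfl⟩ := h.memF.1 hy
  rw [h.evU] at hx' hy'
  obtain ⟨i, u, h1, h2⟩ := (by decide +kernel : ∀ p q : Z44, ¬p + p = 0 → ¬q + q = 0 →
    ∃ i : Fin 3, ∃ u : Z44, u + u = 0 ∧ sg4^[i] p = q + u) p q hx' hy'
  exact ⟨i, _, h.evU.2 h1, by rw [h.ev_s_pow, h2, h.ev_add]⟩
theorem card_U : Nat.card (Fs z a) = 4 := by
  have e : (Fs z a : Set G) = ev f g '' {p | p + p = 0} := Set.ext fun x => h.memU
  rw [← SetLike.coe_sort_coe, e, Nat.card_coe_set_eq, Set.ncard_image_of_injective _ h.ev_inj,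
    Set.ncard_eq_toFinset_card']
  decide +kernel
theorem card_F : Nat.card (Fs f g) = 16 := by
  rw [← h.range_evH, ← Nat.card_congr (MonoidHom.ofInjective (f := h.evH) h.ev_inj).toEquiv]
  simp
theorem iso_F : Nonempty (Fs f g ≃* Multiplicative (ZMod (2 ^ 2) × ZMod (2 ^ 2))) :=
  ⟨(MulEquiv.subgroupCongr h.range_evH.symm).trans (MonoidHom.ofInjective (f := h.evH) h.ev_inj).symm⟩
/-- the generalised dihedral group `F⟨t⟩` -/
theorem mem_D {x : G} : x ∈ Fs f g ⊔ zpowers t ↔ x ∈ Fs f g ∨ x * t ∈ Fs f g := by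
  have n : ∀ y ∈ Fs f g, t * y * t ∈ Fs f g := fun y hy => by rw [h.inv_t hy]; exact inv_mem hy
  have c : ∀ y, t * (t * y) = y := fun y => by rw [← mul_assoc, h.tt, one_mul]
  let D : Subgroup G :=
    { carrier := {x | x ∈ Fs f g ∨ x * t ∈ Fs f g}
      one_mem' := .inl (one_mem _)
      mul_mem' := by
        rintro x y (hx | hx) (hy | hy)
        · exact .inl (mul_mem hx hy)
        · exact .inr (by simpa only [mul_assoc] using mul_mem hx hy)
        · exact .inr (by simpa only [mul_assoc, c] using mul_mem hx (n _ hy))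
        · exact .inl (by simpa only [mul_assoc, c, h.tt, mul_one] using mul_mem hx (n _ hy))
      inv_mem' := by
        rintro x (hx | hx)
        · exact .inl (inv_mem hx)
        · exact .inr (by simpa only [mul_inv_rev, h.tinv, mul_assoc, c] using n _ (inv_mem hx)) }
  refine ⟨fun hx => (sup_le (fun y hy => Or.inl hy) (zpowers_le.2 (Or.inr (by rw [h.tt]; exact one_mem _))) :
    _ ≤ D) hx, ?_⟩
  rintro (hx | hx)
  · exact mem_sup_left hx
  · exact (Subgroup.mul_mem_cancel_right _ (mem_sup_right (mem_zpowers t))).1 (mem_sup_left hx)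
theorem card_D : Nat.card (Fs f g ⊔ zpowers t : Subgroup G) = 32 := by
  have fin : (Fs f g : Set G).Finite := Nat.finite_of_card_ne_zero (by
    rw [SetLike.coe_sort_coe, h.card_F]; decide)
  have e : ((Fs f g ⊔ zpowers t : Subgroup G) : Set G) =
      (Fs f g : Set G) ∪ (· * t) '' (Fs f g : Set G) := Set.ext fun x => by
    rw [SetLike.mem_coe, h.mem_D]
    exact or_congr Iff.rfl ⟨fun hx => ⟨_, hx, by simp only [mul_assoc, h.tt, mul_one]⟩,
      fun ⟨y, hy, e⟩ => by rw [← e]; simpa only [mul_assoc, h.tt, mul_one, SetLike.mem_coe] using hy⟩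
  have c := h.card_F
  rw [← SetLike.coe_sort_coe, Nat.card_coe_set_eq] at c
  rw [← SetLike.coe_sort_coe, e, Nat.card_coe_set_eq, Set.ncard_union_eq _ fin (fin.image _),
    Set.ncard_image_of_injective _ (mul_left_injective t), c]
  rw [Set.disjoint_left]
  rintro _ hx ⟨y, hy, rfl⟩
  exact h.t_not ((Subgroup.mul_mem_cancel_left _ hy).1 hx)
/-- an involution which normalises `F`, permutes `t F` and does not centralise `U` fixes a conjugate of `t` under `F` -/
theorem h1 {y : G} (yy : y * y = 1) (yn : ∀ φ ∈ Fs f g, y * φ * y ∈ Fs f g) (yt : y * t * y * t ∈ Fs f g)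
    (yU : ¬(y * z = z * y ∧ y * a = a * y)) : ∃ φ ∈ Fs f g, y * (t * φ) = t * φ * y := by
  have yi : y⁻¹ = y := inv_eq_of_mul_eq_one_right yy
  obtain ⟨A, hA⟩ := h.memF.1 (yn f (subset_closure (by simp)))
  obtain ⟨B, hB⟩ := h.memF.1 (yn g (subset_closure (by simp)))
  obtain ⟨c, hc⟩ := h.memF.1 yt
  have k := h.ev_conj (y := y) (A := A) (B := B) (by rw [yi, hA]) (by rw [yi, hB])
  rw [yi] at k
  have cy : ∀ x, y * (y * x) = x := fun x => by rw [← mul_assoc, yy, one_mul]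
  have ct : ∀ x, t * (t * x) = x := fun x => by rw [← mul_assoc, h.tt, one_mul]
  obtain ⟨p, hp⟩ := z44_key A B c
    (h.ev_inj (by rw [← k, hA, ev_f]; simp only [mul_assoc, cy, yy, mul_one]))
    (h.ev_inj (by rw [← k, hB, ev_g]; simp only [mul_assoc, cy, yy, mul_one]))
    (h.ev_one (by rw [h.ev_add, ← k, hc]; simp only [mul_assoc, cy, ct, yy, h.tt])) fun ⟨e1, e2⟩ => yU ⟨by
      have := h.ev_pow A 2
      rw [e1, h.ev_z, hA, pow_two] at this
      simp only [mul_assoc, cy] at this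
      rw [← mul_assoc f, h.ff] at this
      conv_lhs => rw [this, cy], by
      have := h.ev_pow B 2
      rw [e2, h.ev_a, hB, pow_two] at this
      simp only [mul_assoc, cy] at this
      rw [← mul_assoc g, h.gg] at this
      conv_lhs => rw [this, cy]⟩
  refine ⟨_, h.evF p, ?_⟩
  conv_rhs => rw [← hp, h.ev_add, ← k, ← h.ev_t, hc]
  simp only [mul_assoc, cy, ct, yy, h.tt, mul_one]
/-- images -/
theorem map {G' : Type*} [Group G'] (π : G →* G') (h1 : π z ≠ 1) (h2 : π a ≠ 1) (h3 : π (z * a) ≠ 1) :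
    FG (π t) (π z) (π a) (π s) (π f) (π g) := by
  have m : ∀ {x y w : G}, x * y = w → π x * π y = π w := fun e => by rw [← map_mul, e]
  refine ⟨by rw [← map_mul, h.tt, map_one], by rw [← map_mul, h.zz, map_one], by rw [← map_mul, h.aa, map_one],
    h1, h2, fun e => h3 (by rw [map_mul, e, ← map_mul, h.aa, map_one]), m h.ff, m h.gg,
    by rw [← map_mul, ← map_mul, h.fg], ?_, ?_, by rw [← map_mul, ← map_mul, h.st], ?_, ?_, ?_⟩
  · simpa using congrArg π h.tf
  · simpa using congrArg π h.tg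
  · simpa using congrArg π h.s3
  · simpa using congrArg π h.sf
  · simpa using congrArg π h.sg

end FG

/-- facts on `B ≅ A5` with a four-group `⟨z,a⟩` -/
structure A5 (B : Subgroup G) (z a : G) : Prop where
  simple : IsSimpleGroup B
  card : Nat.card B = 60
  nab : ¬IsMulCommutative B
  cen : ∀ b ∈ B, (∀ c ∈ B, b * c = c * b) → b = 1
  four : ∀ b ∈ B, b ^ 4 = 1 → b * b = 1
  cU : ∀ b ∈ B, b * z = z * b → b ∈ Fs z a
  syl : ∀ P : Subgroup G, P ≤ B → IsPGroup 2 P → z ∈ P → P ≤ Fs z a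
  gen : ∀ M : Subgroup G, (∀ b ∈ B, b * z * b⁻¹ ∈ M) → B ≤ M
  com : B ≤ ⁅B, B⁆
  five : ∃ b ∈ B, orderOf b = 5
  /-- a subgroup of odd order normalised by `B` meets `B` trivially -/
  odd : ∀ b ∈ B, ∀ W : Subgroup G, Odd (Nat.card W) → (∀ c ∈ B, c * b * c⁻¹ ∈ W) → b = 1

theorem s5_four : ∀ x : Equiv.Perm (Fin 5), Equiv.Perm.sign x = 1 → x ^ 4 = 1 → x * x = 1 := by decide +kernel

set_option synthInstance.maxSize 2048 in
theorem s5_cen : ∀ z : Equiv.Perm (Fin 5), z * z = 1 → z ≠ 1 → Equiv.Perm.sign z = 1 →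
    ∀ a : Equiv.Perm (Fin 5), z * a = a * z → a ≠ 1 → z ≠ a → Equiv.Perm.sign a = 1 →
    ∀ b : Equiv.Perm (Fin 5), b * z = z * b → Equiv.Perm.sign b = 1 → b = 1 ∨ b = z ∨ b = a ∨ b = z * a := by
  decide +kernel

theorem a5_of (e : Nonempty (alternatingGroup (Fin 5) ≃* B)) (zB : z ∈ B) (aB : a ∈ B) (zz : z * z = 1) (aa : a * a = 1)
    (z1 : z ≠ 1) (a1 : a ≠ 1) (za : z ≠ a) (c : z * a = a * z) : A5 B z a := by
  obtain ⟨e⟩ := e
  have hs : IsSimpleGroup B := e.symm.isSimpleGroup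
  have : Finite B := Finite.of_equiv _ e.toEquiv
  have card : Nat.card B = 60 := by
    have := two_mul_nat_card_alternatingGroup (α := Fin 5)
    rw [Nat.card_perm, Nat.card_fin, Nat.card_congr e.toEquiv] at this
    simp only [Nat.factorial] at this
    omega
  let ψ : alternatingGroup (Fin 5) →* G := B.subtype.comp e.toMonoidHom
  have inj : Function.Injective ψ := Subtype.val_injective.comp e.injective
  have sur : ∀ b ∈ B, ∃ x, ψ x = b := fun b hb => ⟨e.symm ⟨b, hb⟩, by simp [ψ]⟩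
  have mem : ∀ x, ψ x ∈ B := fun x => (e x).2
  have gen : ∀ b ∈ B, b ≠ 1 → ∀ M : Subgroup G, (∀ c ∈ B, c * b * c⁻¹ ∈ M) → B ≤ M := by
    intro b hb b1 M hM
    rcases (normalClosure_normal (s := {(⟨b, hb⟩ : B)})).eq_bot_or_eq_top with k | k
    · have := subset_normalClosure (s := {(⟨b, hb⟩ : B)}) rfl
      rw [k, SetLike.mem_coe, mem_bot] at this
      exact absurd (congrArg Subtype.val this) b1
    · have : normalClosure {(⟨b, hb⟩ : B)} ≤ M.subgroupOf B := (closure_le _).2 fun x hx => by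
        obtain ⟨_, rfl, hx⟩ := Group.mem_conjugatesOfSet_iff.1 hx
        obtain ⟨c, rfl⟩ := isConj_iff.1 hx
        exact hM c c.2
      rw [k] at this
      exact fun x hx => this (mem_top (⟨x, hx⟩ : B))
  have four : ∀ b ∈ B, b ^ 4 = 1 → b * b = 1 := fun b hb h4 => by
    obtain ⟨x, rfl⟩ := sur b hb
    rw [← map_pow, map_eq_one_iff _ inj] at h4
    rw [← map_mul, map_eq_one_iff _ inj]
    exact Subtype.ext (s5_four x.1 x.2 (congrArg Subtype.val h4))
  have cU : ∀ b ∈ B, b * z = z * b → b ∈ Fs z a := fun b hb e => by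
    obtain ⟨x, rfl⟩ := sur b hb
    obtain ⟨y, rfl⟩ := sur z zB
    obtain ⟨w, rfl⟩ := sur a aB
    rw [← map_mul, map_eq_one_iff _ inj] at zz
    rw [← map_mul, ← map_mul, inj.eq_iff] at c e
    have zU : ψ y ∈ Fs (ψ y) (ψ w) := subset_closure (by simp)
    have aU : ψ w ∈ Fs (ψ y) (ψ w) := subset_closure (by simp)
    rcases s5_cen y.1 (congrArg Subtype.val zz) (fun k => z1 (by rw [show y = 1 from Subtype.ext k, map_one])) y.2
      w.1 (congrArg Subtype.val c) (fun k => a1 (by rw [show w = 1 from Subtype.ext k, map_one]))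
      (fun k => za (by rw [show y = w from Subtype.ext k])) w.2 x.1 (congrArg Subtype.val e) x.2 with k | k | k | k
    · rw [show x = 1 from Subtype.ext k, map_one]; exact one_mem _
    · rwa [show x = y from Subtype.ext k]
    · rwa [show x = w from Subtype.ext k]
    · rw [show x = y * w from Subtype.ext k, map_mul]; exact mul_mem zU aU
  have cen : ∀ b ∈ B, (∀ c ∈ B, b * c = c * b) → b = 1 := fun b hb hc => by
    by_contra b1
    have h1 := card_dvd_of_le (gen b hb b1 (zpowers b) fun c k => by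
      rw [← hc c k, mul_inv_cancel_right]; exact mem_zpowers b)
    have b2 : b * b = 1 := by
      have zU : ∀ x ∈ Fs z a, x * x = 1 ∧ x * z = z * x ∧ x * a = a * x := fun x hx => by
        induction hx using closure_induction with
        | mem x hx => rcases hx with rfl | rfl; exacts [⟨zz, rfl, c⟩, ⟨aa, c.symm, rfl⟩]
        | one => simp
        | mul x y hx hy ix iy =>
          refine ⟨?_, (Commute.mul_left ix.2.1 iy.2.1 :), (Commute.mul_left ix.2.2 iy.2.2 :)⟩
          have : x ∈ centralizer {y} := (closure_le _).2 (by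
            rintro _ (rfl | rfl)
            exacts [mem_centralizer_singleton_iff.2 iy.2.1.symm, mem_centralizer_singleton_iff.2 iy.2.2.symm]) hx
          rw [(Commute.symm (mem_centralizer_singleton_iff.1 this)).mul_mul_mul_comm, ix.1, iy.1, mul_one]
        | inv x _ ix => rwa [inv_eq_of_mul_eq_one_right ix.1]
      exact (zU b (cU b hb (hc z zB))).1
    rw [card, Nat.card_zpowers] at h1
    have := Nat.le_of_dvd two_pos (h1.trans (orderOf_dvd_of_pow_eq_one (by rw [pow_two, b2])))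
    omega
  have nab : ¬IsMulCommutative B := fun k => z1 (cen z zB fun c hc =>
    congrArg Subtype.val (k.is_comm.comm (⟨z, zB⟩ : B) ⟨c, hc⟩))
  refine ⟨hs, card, nab, cen, four, cU, fun P PB hP zP x hx => ?_, gen z zB z1, ?_, ?_, fun b hb W hW k => ?_⟩
  · have sq : ∀ x ∈ P, x * x = 1 := fun x hx => four x (PB hx) (by
      obtain ⟨k, hk⟩ := hP ⟨x, hx⟩
      have h1 : orderOf x ∣ 2 ^ k := orderOf_dvd_of_pow_eq_one (congrArg Subtype.val hk)
      have h2 : orderOf x ∣ 4 * 15 := by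
        have := orderOf_dvd_natCard (⟨x, PB hx⟩ : B)
        rwa [card, ← orderOf_coe] at this
      exact orderOf_dvd_iff_pow_eq_one.1 ((Nat.Coprime.coprime_dvd_left h1
        (Nat.Coprime.pow_left k (by decide))).dvd_of_dvd_mul_right h2))
    refine cU x (PB hx) ?_
    rw [← inv_eq_of_mul_eq_one_right (sq _ (P.mul_mem hx zP)), mul_inv_rev, inv_eq_of_mul_eq_one_right zz,
      inv_eq_of_mul_eq_one_right (sq x hx)]
  · rw [← map_subtype_commutator]
    rcases (inferInstance : (commutator B).Normal).eq_bot_or_eq_top with k | k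
    · exact absurd ((commutator_eq_bot_iff_center_eq_top _).1 k) fun e => nab ⟨⟨fun x y =>
        (mem_center_iff.1 (e ▸ mem_top y) x)⟩⟩
    · rw [k, ← MonoidHom.range_eq_map, range_subtype]
  · have : Fact (Nat.Prime 5) := ⟨by decide⟩
    obtain ⟨x, hx⟩ := exists_prime_orderOf_dvd_card' (G := B) 5 (by rw [card]; decide)
    exact ⟨x, x.2, by rw [orderOf_coe, hx]⟩
  · by_contra b1
    have := card_dvd_of_le (gen b hb b1 W k)
    rw [card] at this
    exact absurd (hW.of_dvd_nat this) (by decide)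

theorem Pm.a5 (h : Pm B Y t z a s f g) : A5 B z a :=
  a5_of h.iso h.zB h.aB h.zz h.aa h.z1 h.a1 h.za
  (h.toFG.comm (h.toFG.U_le (subset_closure (by simp))) (h.toFG.U_le (subset_closure (by simp))))

end CfsgLib.SJ.Pu
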