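import Mathlib
import Cfsg.Agent.Lib.SJ.PDefs
import Cfsg.Agent.Lib.Mathieu.Syl2

/-! Package PKM: a Sylow 2-subgroup of `M12` has centre of order 2 (plans/SJS.md). -/

set_option autoImplicit false
set_option linter.unusedVariables false
set_option linter.unusedSectionVars false

namespace CfsgLib.SJ.Pu

open Subgroup Cfsg
open scoped MatrixGroups

variable {G : Type*} [Group G] {B Y S E : Subgroup G} {t z a s f g : G}

theorem m12_card {X : Type*} [Group X] (h : Spor.IsoM12 X) : Nat.card X = 95040 := by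
  obtain ⟨e⟩ := h
  exact (Nat.card_congr e.toEquiv).trans Mathieu.card_M12

theorem pkm_code {x : Spor.M12} (hx : (x : Mathieu.P24) ∈ Mathieu.gp Mathieu.syl12) (x1 : x ≠ 1)
    (cx : ∀ p : Spor.M12, (p : Mathieu.P24) ∈ Mathieu.gp Mathieu.syl12 → p * x = x * p) :
    Mathieu.code (x : Mathieu.P24) = Mathieu.sylZ12 :=
  Mathieu.code_eq_of_cenOK Mathieu.has_top_syl12 Mathieu.pcOK12 Mathieu.cenOK12 hx
    (fun e => x1 (Subtype.ext e)) fun p hp => congrArg Subtype.val (cx ⟨p, Mathieu.syl12_le hp⟩ hp)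

theorem m12_false {X : Type*} [Group X] (h : Spor.IsoM12 X) {P : Subgroup X} (hP : Nat.card P = 64) {x y : X}
    (xP : x ∈ P) (yP : y ∈ P) (x1 : x ≠ 1) (y1 : y ≠ 1) (xy : x ≠ y) (cx : ∀ p ∈ P, p * x = x * p)
    (cy : ∀ p ∈ P, p * y = y * p) : False := by
  obtain ⟨e⟩ := h
  have : Fact (Nat.Prime 2) := ⟨Nat.prime_two⟩
  have : Finite Spor.M12 := Nat.finite_of_card_ne_zero (by rw [Mathieu.card_M12]; norm_num)
  have c1 : Nat.card (P.map e.toMonoidHom) = 2 ^ (Nat.card Spor.M12).factorization 2 := by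
    rw [card_map_of_injective e.injective, hP, ← Mathieu.card_syl12', Mathieu.card_syl12]; rfl
  have c2 : Nat.card ((Mathieu.gp Mathieu.syl12).subgroupOf Spor.M12) = 2 ^ (Nat.card Spor.M12).factorization 2 := by
    rw [← Mathieu.card_syl12']
    exact Nat.card_congr (subgroupOfEquivOfLe Mathieu.syl12_le).toEquiv
  obtain ⟨k, hk⟩ := MulAction.exists_smul_eq Spor.M12 (Sylow.ofCard _ c1) (Sylow.ofCard _ c2)
  have hm : ∀ p : Spor.M12, (p : Mathieu.P24) ∈ Mathieu.gp Mathieu.syl12 ↔ ∃ q ∈ P, k * e q * k⁻¹ = p := fun p => by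
    have : p ∈ (Sylow.ofCard _ c2 : Sylow 2 Spor.M12) ↔ p ∈ k • (Sylow.ofCard _ c1 : Sylow 2 Spor.M12) := by rw [hk]
    refine this.trans ⟨?_, ?_⟩
    · rintro ⟨_, ⟨q, hq, rfl⟩, rfl⟩
      exact ⟨q, hq, rfl⟩
    · rintro ⟨q, hq, rfl⟩
      exact ⟨_, ⟨q, hq, rfl⟩, rfl⟩
  have key : ∀ x ∈ P, x ≠ 1 → (∀ p ∈ P, p * x = x * p) →
      Mathieu.code ((k * e x * k⁻¹ : Spor.M12) : Mathieu.P24) = Mathieu.sylZ12 := fun x xP x1 cx =>
    pkm_code ((hm _).2 ⟨x, xP, rfl⟩) (fun h => x1 (by simpa using h)) fun p hp => by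
      obtain ⟨q, hq, rfl⟩ := (hm p).1 hp
      rw [conj_mul, conj_mul, ← map_mul, ← map_mul, cx q hq]
  have := Subtype.ext (Mathieu.code_injective ((key x xP x1 cx).trans (key y yP y1 cy).symm))
  exact xy (by simpa using this)

end CfsgLib.SJ.Pu
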