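import Mathlib
import Cfsg.Agent.Lib.SJ.PDefs
import Cfsg.Agent.Lib.SEMod.U3

/-! Package PKU: facts on `U3(4)` (plans/SJS.md). -/

set_option autoImplicit false
set_option linter.unusedVariables false
set_option linter.unusedSectionVars false

namespace CfsgLib.SJ.Pu

open Subgroup Cfsg
open scoped MatrixGroups

variable {G : Type*} [Group G] {B Y S E : Subgroup G} {t z a s f g : G}

section

open CfsgLib.Unitary CfsgLib.SEMod CfsgLib.Tech CfsgLib.Pres.SU3

variable {K : Type} [Field K] [Fintype K] [hF : Fact (Fintype.card K = 4 ^ 2)]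

theorem pku_card : Nat.card (PSU 3 K 4) = 62400 := by
  have h := card_PSU (n := 3) hF.out (by norm_num)
  simp only [Finset.prod_range_succ, Finset.prod_range_zero] at h
  norm_num at h
  omega

theorem pku_conj {x : PSU 3 K 4} (hx : x ^ 2 ^ 3 = 1) :
    ∃ (c : PSU 3 K 4) (u : UT K 4), c * x * c⁻¹ = psiU u := by
  have c1 : Nat.card (psiU : UT K 4 →* PSU 3 K 4).range = 2 ^ 6 := by
    rw [show 2 ^ 6 = 4 ^ 3 from rfl, ← UT.card_eq (F := K)]
    exact Nat.card_congr (MonoidHom.ofInjective psiU_injective).symm.toEquiv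
  have c2 : IsSylowIn 2 (psiU : UT K 4 →* PSU 3 K 4).range ⊤ := ⟨le_top, IsPGroup.of_card c1, by
    have := (psiU : UT K 4 →* PSU 3 K 4).range.card_mul_index
    rw [c1, pku_card] at this
    rw [relIndex_top_right]
    omega⟩
  obtain ⟨c, -, u, hu⟩ := c2.exists_conj_mem (mem_top x) (isPGroup_zpowers_of_pow hx)
  exact ⟨c, u, hu.symm⟩

theorem pku_kf : KF (PSU 3 K 4) := by
  have h2 : (2 : K) = 0 := two_eq_zero_of_card (n := 4) hF.out
  refine ⟨fun x hx => ?_, fun x y hx x1 hy y1 => ?_⟩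
  · obtain ⟨c, u, hu⟩ := pku_conj hx
    have k : u ^ 4 = 1 := by
      have e : (u * u).X = 0 := by rw [UT.mul_X, ← two_mul, h2, zero_mul]
      rw [show u ^ 4 = u * u * (u * u) by rw [← pow_two, ← pow_two, ← pow_mul]]
      refine UT.eq_one_of_Y ?_
      rw [UT.mul_Y, e, zero_mul, add_zero, ← two_mul, h2, zero_mul]
    rw [← conj_eq_one_iff (a := c), ← conj_pow, hu, ← map_pow, k, map_one]
  · have k : ∀ x : PSU 3 K 4, x * x = 1 → x ≠ 1 → ∃ (d : K) (hd : d ^ 4 = -d), d ≠ 0 ∧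
        IsConj x (psiU (cz d hd)) := fun x hx x1 => by
      obtain ⟨c, u, hu⟩ := pku_conj (x := x) (by
        rw [show 2 ^ 3 = 2 * 4 from rfl, pow_mul, pow_two x, hx, one_pow])
      have e : u * u = 1 := psiU_injective (by rw [map_mul, ← hu, map_one, conj_mul, hx]; simp)
      have e1 := congrArg UT.Y e
      rw [UT.mul_Y, ← two_mul, h2, zero_mul, zero_add, UT.one_Y] at e1
      have e2 : u.X = 0 := by
        rw [← pow_succ'] at e1
        exact pow_eq_zero_iff (by norm_num) |>.1 e1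
      have e3 : u.Y ^ 4 = -u.Y := by linear_combination u.tr + e1
      refine ⟨u.Y, e3, fun h0 => x1 ?_, isConj_iff.2 ⟨c, hu.trans (congrArg psiU (UT.ext e2 rfl))⟩⟩
      rwa [UT.eq_one_of_Y h0, map_one, conj_eq_one_iff] at hu
    obtain ⟨c, hc, c0, h1⟩ := k x hx x1
    obtain ⟨d, hd, d0, h3⟩ := k y hy y1
    obtain ⟨a, ha⟩ := exists_conj_cz hc hd c0 d0
    exact (h1.trans (piU.map_isConj (isConj_iff.2 ⟨a, ha⟩))).trans h3.symm

end

theorem KU4.kf {X : Type*} [Group X] (h : KU4 X) : Nat.card X = 62400 ∧ KF X := by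
  obtain ⟨K, _, _, hK, ⟨e⟩⟩ := h
  have : Fact (Fintype.card K = 4 ^ 2) := ⟨hK⟩
  refine ⟨(Nat.card_congr e.toEquiv).trans pku_card, fun x hx => e.injective ?_, fun x y hx x1 hy y1 => ?_⟩
  · rw [map_pow, map_one, pku_kf.exp _ (by rw [← map_pow, hx, map_one])]
  · simpa using e.symm.toMonoidHom.map_isConj (pku_kf.one (e x) (e y) (by rw [← map_mul, hx, map_one])
      (by simpa using x1) (by rw [← map_mul, hy, map_one]) (by simpa using y1))

end CfsgLib.SJ.Pu
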