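import Mathlib
import Cfsg.Agent.Lib.SJ.PF
import Cfsg.Agent.Lib.Tech.Invol
import Cfsg.Agent.Lib.Core.Cores

/-! Package PQUO: quotients (plans/SJS.md). -/

set_option autoImplicit false
set_option linter.unusedVariables false
set_option linter.unusedSectionVars false

namespace CfsgLib.SJ.Pu

open Subgroup Cfsg
open scoped MatrixGroups

variable {G : Type*} [Group G] {B Y S E : Subgroup G} {t z a s f g : G}

/-- involutions with the same image are conjugate under a kernel of odd order -/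
theorem lift_conj {G' : Type*} [Group G'] {π : G →* G'} (ho : Odd (Nat.card π.ker)) {x y : G} (hx : x * x = 1)
    (hy : y * y = 1) (e : π x = π y) : ∃ m, π m = 1 ∧ m * y * m⁻¹ = x := by
  have k : x * y ∈ π.ker := by rw [MonoidHom.mem_ker, map_mul, e, ← map_mul, hy, map_one]
  obtain ⟨n, hn⟩ := Tech.exists_pow_conj_of_odd hx hy (ho.of_dvd_nat (orderOf_dvd_natCard _ k))
  exact ⟨_, pow_mem k n, hn⟩

theorem one_of_ker {G' : Type*} [Group G'] {π : G →* G'} (ho : Odd (Nat.card π.ker)) {x : G} (hx : x * x = 1)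
    (e : π x = 1) : x = 1 := by
  obtain ⟨m, -, h⟩ := lift_conj ho hx (one_mul 1) (e.trans (map_one π).symm)
  simpa using h.symm

theorem conj_sq {x : G} (hx : x * x = 1) (c : G) : c * x * c⁻¹ * (c * x * c⁻¹) = 1 := by
  rw [conj_mul, hx, mul_one, mul_inv_cancel]

/-- passing to a quotient by a normal subgroup of odd order -/
theorem Pm.quo [Finite G] (h : Pm B Y t z a s f g) {G' : Type*} [Group G'] (π : G →* G') (hπ : Function.Surjective π)
    (ho : Odd (Nat.card π.ker)) : Pm (B.map π) (Y.map π) (π t) (π z) (π a) (π s) (π f) (π g) := by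
  have inj : ∀ b ∈ B, π b = 1 → b = 1 := fun b hb e => h.a5.odd b hb π.ker ho fun c _ => by simp [e]
  have za : z * a ≠ 1 := fun e => h.za (mul_right_cancel (e.trans h.aa.symm))
  refine { h.toFG.map π (fun e => h.z1 (inj _ h.zB e)) (fun e => h.a1 (inj _ h.aB e))
             (fun e => za (inj _ (mul_mem h.zB h.aB) e)) with
           iso := ?_, zB := mem_map_of_mem π h.zB, aB := mem_map_of_mem π h.aB, sB := mem_map_of_mem π h.sB
           tB := ?_, yodd := ?_, yt := ?_, yB := ?_, cent := fun x hx => ?_, nc := fun x hx => ?_ }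
  · obtain ⟨e⟩ := h.iso
    exact ⟨e.trans (MulEquiv.ofBijective (π.subgroupMap B) ⟨(injective_iff_map_eq_one _).2 fun b e =>
      Subtype.ext (inj _ b.2 (congrArg Subtype.val e)), π.subgroupMap_surjective B⟩)⟩
  · rintro _ ⟨b, hb, rfl⟩
    rw [← map_mul, h.tB b hb, map_mul]
  · rintro _ ⟨y, hy, rfl⟩
    exact (h.yodd y hy).of_dvd_nat (orderOf_map_dvd π y)
  · rintro _ ⟨y, hy, rfl⟩
    rw [← map_mul, h.yt y hy, map_mul]
  · rintro _ ⟨y, hy, rfl⟩ _ ⟨b, hb, rfl⟩
    rw [← map_mul, h.yB y hy b hb, map_mul]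
  · obtain ⟨x, rfl⟩ := hπ x
    obtain ⟨m, m1, e⟩ := lift_conj ho h.tt (conj_sq h.tt x) (by rw [map_mul, map_mul, hx, map_inv, mul_inv_cancel_right])
    obtain ⟨y, hy, b, hb, k⟩ := h.cent (m * x) (by
      rw [← mul_inv_eq_iff_eq_mul]; refine Eq.trans ?_ e; group)
    refine ⟨_, mem_map_of_mem π hy, _, mem_map_of_mem π hb, k.imp (fun k => ?_) fun k => ?_⟩ <;>
      simpa [m1] using congrArg π k
  · obtain ⟨x, rfl⟩ := hπ x
    obtain ⟨b, hb, e⟩ := hx
    have e' : π b = π (x * t * x⁻¹) := by simpa using e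
    obtain ⟨m, -, k⟩ := lift_conj ho (inj _ (mul_mem hb hb) (by rw [map_mul, e', ← map_mul, conj_sq h.tt, map_one]))
      (conj_sq h.tt x) e'
    refine h.nc (m * x) ?_
    rwa [show m * x * t * (m * x)⁻¹ = b by rw [← k]; group]

/-- central 2-subgroups split off the odd core of the quotient -/
theorem cen2 [Finite G] {G' : Type*} [Group G'] (π : G →* G') (hπ : Function.Surjective π) (h2 : IsPGroup 2 π.ker)
    (hc : π.ker ≤ center G) {x : G} (hx : π x ∈ oddCore G') : ∃ o ∈ oddCore G, ∃ e ∈ π.ker, x = o * e := by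
  let N := (oddCore G').comap π
  have : N.Normal := Normal.comap (inferInstanceAs (pPrimeCore 2 G').Normal) π
  have hi : Odd (π.ker.subgroupOf N).index := by
    have : Finite G' := Finite.of_surjective π hπ
    rw [← MonoidHom.ker_domRestrict, index_ker, MonoidHom.domRestrict_range, map_comap_eq_self_of_surjective hπ]
    exact Core.odd_card_oddCore G'
  obtain ⟨n, hn⟩ := IsPGroup.iff_card.1 (h2.comap_subtype (K := N))
  obtain ⟨H, hH⟩ := exists_right_complement'_of_coprime (N := π.ker.subgroupOf N) (by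
    rw [show Nat.card (π.ker.subgroupOf N) = 2 ^ n from hn]
    exact Nat.Coprime.pow_left _ (Nat.coprime_two_left.2 hi))
  have : H.Normal := ⟨fun y hy c => by
    obtain ⟨⟨k, l⟩, rfl⟩ := hH.2 c
    have e : ∀ w : N, w * k = k * w := fun w => Subtype.ext (mem_center_iff.1 (hc k.2) w)
    change k.1 * l.1 * y * (k.1 * l.1)⁻¹ ∈ H
    rw [show k.1 * l.1 * y * (k.1 * l.1)⁻¹ = k.1 * (l.1 * y * l.1⁻¹) * k.1⁻¹ by group, ← e, mul_inv_cancel_right]
    exact mul_mem (mul_mem l.2 hy) (inv_mem l.2)⟩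
  have h1 : H ≤ pPrimeCore 2 N := Core.le_pPrimeCore (by
    rw [← hH.symm.index_eq_card]; exact Nat.coprime_two_right.2 hi)
  obtain ⟨⟨l, k⟩, e⟩ := hH.symm.2 ⟨x, hx⟩
  exact ⟨l.1, Core.map_pPrimeCore_le_of_normal N (mem_map_of_mem _ (h1 l.2)), k.1, k.2, (congrArg Subtype.val e).symm⟩

/-- the normal closure of an element which centralises the kernel -/
theorem ncl [Finite G] {G' : Type*} [Group G'] (π : G →* G') (hπ : Function.Surjective π) {E' : Subgroup G'} [E'.Normal]
    (hs : IsSimpleGroup E') (nab : ¬IsMulCommutative E') (zE : π z ∈ E') (z1 : π z ≠ 1) (zk : ∀ n ∈ π.ker, n * z = z * n)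
    (zB : z ∈ B) (com : B ≤ ⁅B, B⁆) (gen : ∀ M : Subgroup G, (∀ b ∈ B, b * z * b⁻¹ ∈ M) → B ≤ M) :
    (normalClosure {z}).map π = E' ∧ IsQuasisimple (normalClosure {z} : Subgroup G) ∧
      (∀ x ∈ normalClosure {z}, (∀ l ∈ normalClosure {z}, x * l = l * x) ↔ π x = 1) ∧
      Nonempty ((normalClosure {z} : Subgroup G) ⧸ center (normalClosure {z} : Subgroup G) ≃* E') := by
  set L : Subgroup G := normalClosure {z}
  have zL : z ∈ L := subset_normalClosure rfl
  have h0 : L ≤ E'.comap π := normalClosure_le_normal (by simpa using zE)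
  have h1 : L.map π = E' := by
    have : (L.map π).Normal := Normal.map inferInstance π hπ
    rcases hs.eq_bot_or_eq_top_of_normal ((L.map π).subgroupOf E') inferInstance with e | e
    · exact absurd (congrArg Subtype.val (mem_bot.1 (e.le (show (⟨_, zE⟩ : E') ∈ _ from mem_map_of_mem π zL)))) z1
    · exact le_antisymm (map_le_iff_le_comap.2 h0) (subgroupOf_eq_top.1 e)
  have h2 : L ≤ centralizer (π.ker : Set G) := normalClosure_le_normal (by simpa [mem_centralizer_iff] using zk)
  have h3 : ∀ x ∈ L, (∀ l ∈ L, x * l = l * x) ↔ π x = 1 := fun x hx => by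
    refine ⟨fun h => ?_, fun h l hl => h2 hl x h⟩
    rcases hs.eq_bot_or_eq_top_of_normal (center E') inferInstance with e | e
    · refine congrArg Subtype.val (mem_bot.1 (e.le (show (⟨_, h0 hx⟩ : E') ∈ _ from mem_center_iff.2 fun y => ?_)))
      obtain ⟨l, hl, k⟩ := h1.ge y.2
      exact Subtype.ext (by rw [coe_mul, coe_mul, ← k, ← map_mul, ← h l hl, map_mul])
    · exact absurd ⟨⟨fun a b => (mem_center_iff.1 (e.ge (mem_top b)) a)⟩⟩ nab
  let φ : L →* E' := (π.comp L.subtype).codRestrict E' fun x => h0 x.2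
  have h4 : Function.Surjective φ := fun y => by
    obtain ⟨l, hl, k⟩ := h1.ge y.2
    exact ⟨⟨l, hl⟩, Subtype.ext k⟩
  have h5 : center L = φ.ker := Subgroup.ext fun x => by
    rw [mem_center_iff, MonoidHom.mem_ker, Subtype.ext_iff]
    exact Iff.trans ⟨fun h l hl => (congrArg Subtype.val (h ⟨l, hl⟩)).symm, fun h l => Subtype.ext (h l l.2).symm⟩
      (h3 x x.2)
  let e := (QuotientGroup.quotientMulEquivOfEq h5).trans (QuotientGroup.quotientKerEquivOfSurjective φ h4)
  have h6 : B ≤ L := gen L fun b _ => Normal.conj_mem inferInstance _ zL b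
  refine ⟨h1, ⟨isPerfect_iff.2 (le_antisymm (commutator_le_right _ _) (normalClosure_le_normal ?_)),
    e.isSimpleGroup⟩, h3, ⟨e⟩⟩
  simpa using commutator_mono h6 h6 (com zB)

/-- `KF` lifts through a centre of odd order -/
theorem KF.lift {X : Type*} [Group X] [Finite X] (ho : Odd (Nat.card (center X))) (h : KF (X ⧸ center X)) : KF X := by
  let π := QuotientGroup.mk' (center X)
  have ho' : Odd (Nat.card π.ker) := by rwa [QuotientGroup.ker_mk']
  refine ⟨fun x hx => one_of_ker ho' (by rw [← pow_add, hx]) ?_, fun x y x2 x1 y2 y1 => ?_⟩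
  · rw [map_pow]
    exact h.exp _ (by rw [← map_pow, hx, map_one])
  · obtain ⟨c, hc⟩ := isConj_iff.1 (h.one (π x) (π y) (by rw [← map_mul, x2, map_one]) (fun e => x1 (one_of_ker ho' x2 e))
      (by rw [← map_mul, y2, map_one]) fun e => y1 (one_of_ker ho' y2 e))
    obtain ⟨c, rfl⟩ := QuotientGroup.mk'_surjective _ c
    obtain ⟨m, -, k⟩ := lift_conj ho' y2 (conj_sq x2 c) (by rw [map_mul, map_mul, map_inv]; exact hc.symm)
    exact isConj_iff.2 ⟨m * c, by rw [← k]; group⟩

end CfsgLib.SJ.Pu
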