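import Mathlib
import Cfsg.Agent.Lib.SJ.Defs
import Cfsg.Agent.Lib.SJ.PDefs

/-! Standard `J2`, branch S: vocabulary (plans/SJS.md). -/

set_option autoImplicit false

namespace CfsgLib.SJ

open Subgroup Cfsg Pu

variable {G : Type*} [Group G]

/-- `C(V)` -/
noncomputable def CV (ι : J →* G) : Subgroup G := centralizer {ι v, ι w}
/-- `C(V r)` -/
noncomputable def HV (ι : J →* G) : Subgroup G := centralizer {ι v, ι w, ι r}
/-- the component `L` -/
noncomputable def Lh (ι : J →* G) : Subgroup G := closure {x | ∃ c ∈ HV ι, x = c * ι z * c⁻¹}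
/-- `V × S⟨t⟩` -/
noncomputable def T0 (ι : J →* G) (t : G) (S : Subgroup G) : Subgroup G := (V.map ι ⊔ S) ⊔ zpowers t
/-- conjugate to `t` -/
def Dc (t x : G) : Prop := ∃ k, k * t * k⁻¹ = x

/-- the frame with `F = ⟨f,g⟩ ≅ 4 × 4` -/
structure Sf0 (ι : J →* G) (t : G) (Y : Subgroup G) (f g : G) : Prop where
  fr : Fr ι t Y
  fg : FG t (ι z) (ι a) (ι s) f g
  fc : ∀ c, c * z = z * c → c * a = a * c → f * ι c = ι c * f
  gc : ∀ c, c * z = z * c → c * a = a * c → g * ι c = ι c * g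
  fY : ∀ y ∈ Y, f * y = y * f
  gY : ∀ y ∈ Y, g * y = y * g

/-- moreover `t` is not conjugate to `t v` -/
structure Sf (ι : J →* G) (t : G) (Y : Subgroup G) (f g : G) : Prop extends Sf0 ι t Y f g where
  ntv : ∀ k, k * t * k⁻¹ ≠ t * ι v

/-- the component `L = Lh ι` of type `L3(4)` or `U3(4)` with Sylow 2-subgroup `S` -/
structure Lf0 (ι : J →* G) (t : G) (Y : Subgroup G) (f g : G) (S : Subgroup G) : Prop extends Sf ι t Y f g where
  loc : Loc S t (ι z) (ι a) f g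
  qs : IsQuasisimple (Lh ι)
  zodd : Odd (Nat.card (center (Lh ι)))
  iso : K34 (Lh ι ⧸ center (Lh ι)) ∨ KU4 (Lh ι ⧸ center (Lh ι))
  kf : KF (Lh ι)
  n128 : ¬128 ∣ Nat.card (Lh ι)
  SL : S ≤ Lh ι
  BL : ∀ c ∈ B, ι c ∈ Lh ι
  le : Lh ι ≤ HV ι

/-- moreover `L` is normal in `C(V)` -/
structure Lf (ι : J →* G) (t : G) (Y : Subgroup G) (f g : G) (S : Subgroup G) : Prop extends Lf0 ι t Y f g S where
  nrm : ∀ c ∈ CV ι, ∀ l ∈ Lh ι, c * l * c⁻¹ ∈ Lh ι

end CfsgLib.SJ
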